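import Cfsg.Agent.H891.DG.Defs
import Cfsg.Agent.Lib.MinNormalNonabelian
import Cfsg.Agent.H490.Der

/-!
# Derivations of faithful irreducible modules (helper849 for S4180, R1)
-/

set_option autoImplicit false

namespace Cfsg.Agent.H849.DG.AG

open Subgroup Cfsg.Agent.Lib.MinNormalNonabelian Cfsg.Agent.Lib.MinNormal
open Cfsg.Agent.H490.Der Cfsg.Agent.H891.Gen Cfsg.Agent.H891.DG

universe u

/-! ### fixed vectors of normal subgroups -/

section

variable {G V : Type*} [Group G] [AddCommGroup V] [DistribMulAction G V]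

theorem fixed_or (hirr : ∀ U : AddSubgroup V, (∀ (g : G), ∀ u ∈ U, g • u ∈ U) → U = ⊥ ∨ U = ⊤)
    (A : Subgroup G) [hA : A.Normal] :
    (∀ v : V, (∀ a ∈ A, a • v = v) → v = 0) ∨ (∀ a ∈ A, ∀ v : V, a • v = v) := by
  let U : AddSubgroup V :=
    { carrier := {v | ∀ a ∈ A, a • v = v}
      zero_mem' := fun a _ => smul_zero a
      add_mem' := fun {v w} hv hw a ha => by rw [smul_add, hv a ha, hw a ha]
      neg_mem' := fun {v} hv a ha => by rw [smul_neg, hv a ha] }
  have hU : ∀ (g : G), ∀ u ∈ U, g • u ∈ U := by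
    intro g u hu a ha
    have h1 := hu (g⁻¹ * a * g) (by have := hA.conj_mem a ha g⁻¹; rwa [inv_inv] at this)
    rw [mul_smul, mul_smul] at h1
    have h2 := congrArg (fun v => g • v) h1
    simp only [smul_inv_smul] at h2
    exact h2
  rcases hirr U hU with h | h
  · left
    intro v hv
    have h1 : v ∈ U := hv
    rwa [h, AddSubgroup.mem_bot] at h1
  · right
    intro a ha v
    have h1 : v ∈ U := h ▸ AddSubgroup.mem_top v
    exact h1 a ha

/-! ### the augmentation ideal -/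

/-- the augmentation ideal of `B` as endomorphisms of `V` -/
def JJ (V : Type*) [AddCommGroup V] [DistribMulAction G V] (B : Subgroup G) : AddSubgroup (AddMonoid.End V) :=
  AddSubgroup.closure {j | ∃ b ∈ B, j = DistribMulAction.toAddMonoidEnd G V b - 1}

theorem gen_mem {B : Subgroup G} {b : G} (hb : b ∈ B) :
    DistribMulAction.toAddMonoidEnd G V b - 1 ∈ JJ V B := AddSubgroup.subset_closure ⟨b, hb, rfl⟩

theorem left_mem {B : Subgroup G} {b : G} (hb : b ∈ B) {j : AddMonoid.End V} (hj : j ∈ JJ V B) :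
    DistribMulAction.toAddMonoidEnd G V b * j ∈ JJ V B := by
  induction hj using AddSubgroup.closure_induction with
  | mem x hx =>
    obtain ⟨c, hc, rfl⟩ := hx
    have h1 : DistribMulAction.toAddMonoidEnd G V b * (DistribMulAction.toAddMonoidEnd G V c - 1) =
        (DistribMulAction.toAddMonoidEnd G V (b * c) - 1) - (DistribMulAction.toAddMonoidEnd G V b - 1) := by
      rw [map_mul, mul_sub, mul_one]
      abel
    rw [h1]
    exact sub_mem (gen_mem (mul_mem hb hc)) (gen_mem hb)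
  | zero => rw [mul_zero]; exact zero_mem _
  | add x y hx hy ihx ihy => rw [mul_add]; exact add_mem ihx ihy
  | neg x hx ih => rw [mul_neg]; exact neg_mem ih

theorem mul_mem_JJ {B : Subgroup G} {i j : AddMonoid.End V} (hi : i ∈ JJ V B) (hj : j ∈ JJ V B) : i * j ∈ JJ V B := by
  induction hi using AddSubgroup.closure_induction with
  | mem x hx =>
    obtain ⟨c, hc, rfl⟩ := hx
    rw [sub_mul, one_mul]
    exact sub_mem (left_mem hc hj) hj
  | zero => rw [zero_mul]; exact zero_mem _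
  | add x y hx hy ihx ihy => rw [add_mul]; exact add_mem ihx ihy
  | neg x hx ih => rw [neg_mul]; exact neg_mem ih

theorem JJ_smul {A B : Subgroup G} (hcom : ∀ a ∈ A, ∀ b ∈ B, a * b = b * a) {j : AddMonoid.End V} (hj : j ∈ JJ V B)
    {a : G} (ha : a ∈ A) (v : V) : j (a • v) = a • j v := by
  induction hj using AddSubgroup.closure_induction with
  | mem x hx =>
    obtain ⟨c, hc, rfl⟩ := hx
    show c • (a • v) - a • v = a • (c • v - v)
    rw [smul_sub, ← mul_smul, ← mul_smul, hcom a ha c hc]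
  | zero => show (0 : V) = a • (0 : V); rw [smul_zero]
  | add x y hx hy ihx ihy =>
    show x (a • v) + y (a • v) = a • (x v + y v)
    rw [ihx, ihy, smul_add]
  | neg x hx ih =>
    show - (x (a • v)) = a • (- (x v))
    rw [ih, smul_neg]

theorem JJ_mem {B : Subgroup G} {S : AddSubgroup V} (hS : ∀ b ∈ B, ∀ s ∈ S, b • s ∈ S) {j : AddMonoid.End V}
    (hj : j ∈ JJ V B) {s : V} (hs : s ∈ S) : j s ∈ S := by
  induction hj using AddSubgroup.closure_induction with
  | mem x hx =>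
    obtain ⟨c, hc, rfl⟩ := hx
    exact sub_mem (hS c hc s hs) hs
  | zero => exact zero_mem S
  | add x y hx hy ihx ihy => exact add_mem ihx ihy
  | neg x hx ih => exact neg_mem ih

/-- a minimal invariant subgroup -/
theorem exists_min [Finite V] [Nontrivial V] (B : Subgroup G) :
    ∃ S : AddSubgroup V, S ≠ ⊥ ∧ (∀ b ∈ B, ∀ s ∈ S, b • s ∈ S) ∧
      ∀ U : AddSubgroup V, (∀ b ∈ B, ∀ s ∈ U, b • s ∈ U) → U ≤ S → U = ⊥ ∨ U = S := by
  have hfin : {S : AddSubgroup V | S ≠ ⊥ ∧ (∀ b ∈ B, ∀ s ∈ S, b • s ∈ S)}.Finite := by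
    have : Finite (AddSubgroup V) := inferInstance
    exact Set.toFinite _
  have hne : {S : AddSubgroup V | S ≠ ⊥ ∧ (∀ b ∈ B, ∀ s ∈ S, b • s ∈ S)}.Nonempty :=
    ⟨⊤, top_ne_bot, fun _ _ _ _ => AddSubgroup.mem_top _⟩
  obtain ⟨S, hS⟩ := hfin.exists_minimal hne
  refine ⟨S, hS.1.1, hS.1.2, fun U hU hUS => ?_⟩
  by_cases h : U = ⊥
  · exact Or.inl h
  · exact Or.inr (le_antisymm hUS (hS.2 ⟨h, hU⟩ hUS))

/-- the augmentation ideal contains the identity -/
theorem one_mem_JJ [Finite V] [Nontrivial V]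
    (hirr : ∀ U : AddSubgroup V, (∀ (g : G), ∀ u ∈ U, g • u ∈ U) → U = ⊥ ∨ U = ⊤) {A B : Subgroup G} 
    (hsup : ∀ g : G, ∃ a ∈ A, ∃ b ∈ B, g = a * b) (hcom : ∀ a ∈ A, ∀ b ∈ B, a * b = b * a)
    (hB : ∀ v : V, (∀ b ∈ B, b • v = v) → v = 0) : (1 : AddMonoid.End V) ∈ JJ V B := by
  obtain ⟨S, hS0, hS, hmin⟩ := exists_min (V := V) B
  have h3 : ∀ r ∈ S, r ≠ 0 → ∃ j ∈ JJ V B, j r = r := by
    intro r hr hr0
    let ev : AddMonoid.End V →+ V :=
      { toFun := fun j => j r
        map_zero' := rfl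
        map_add' := fun _ _ => rfl }
    have i1 : ∀ b ∈ B, ∀ s ∈ (JJ V B).map ev, b • s ∈ (JJ V B).map ev := by
      rintro b hb _ ⟨j, hj, rfl⟩
      exact ⟨_, left_mem hb hj, rfl⟩
    have i2 : (JJ V B).map ev ≤ S := by
      rintro _ ⟨j, hj, rfl⟩
      exact JJ_mem hS hj hr
    rcases hmin ((JJ V B).map ev) i1 i2 with h | h
    · exfalso
      apply hr0
      apply hB
      intro b hb
      have h1 : b • r - r ∈ (JJ V B).map ev := ⟨_, gen_mem hb, rfl⟩
      rw [h, AddSubgroup.mem_bot] at h1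
      exact sub_eq_zero.1 h1
    · rw [← h] at hr
      obtain ⟨j, hj, hjr⟩ := hr
      exact ⟨j, hj, hjr⟩
  have hfinE : Finite (AddMonoid.End V) :=
    Finite.of_injective (fun (e : AddMonoid.End V) (v : V) => e v) (fun e e' h => AddMonoidHom.ext fun v => congrFun h v)
  obtain ⟨e, heJ, hmax⟩ := Set.exists_max_image (JJ V B : Set (AddMonoid.End V))
    (fun e => {s : V | s ∈ S ∧ e s = s}.ncard) (Set.toFinite _) ⟨0, zero_mem _⟩
  have he : ∀ s ∈ S, e s = s := by
    by_contra hcon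
    push Not at hcon
    obtain ⟨s, hs, hes⟩ := hcon
    obtain ⟨j, hj, hjr⟩ := h3 (s - e s) (sub_mem hs (JJ_mem hS heJ hs)) (by
      rw [sub_ne_zero]
      exact fun h => hes h.symm)
    have h4 : e + j - j * e ∈ JJ V B := sub_mem (add_mem heJ hj) (mul_mem_JJ hj heJ)
    have h5 := hmax _ h4
    have h6 : {s : V | s ∈ S ∧ e s = s} ⊂ {s : V | s ∈ S ∧ (e + j - j * e) s = s} := by
      rw [Set.ssubset_iff_of_subset]
      · refine ⟨s, ⟨hs, ?_⟩, fun h => hes h.2⟩
        show e s + j s - j (e s) = s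
        rw [map_sub] at hjr
        calc e s + j s - j (e s) = e s + (j s - j (e s)) := by abel
          _ = e s + (s - e s) := by rw [hjr]
          _ = s := by abel
      · rintro t ⟨ht, het⟩
        refine ⟨ht, ?_⟩
        show e t + j t - j (e t) = t
        rw [het]
        abel
    have h7 := Set.ncard_lt_ncard h6 (Set.toFinite _)
    exact absurd h5 (not_le.2 h7)
  -- the identity on the whole space
  let U : AddSubgroup V := AddSubgroup.closure {v | ∃ a ∈ A, ∃ s ∈ S, v = a • s}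
  have hU : ∀ (g : G), ∀ u ∈ U, g • u ∈ U := by
    intro g u hu
    obtain ⟨a, ha, b, hb, rfl⟩ := hsup g
    induction hu using AddSubgroup.closure_induction with
    | mem x hx =>
      obtain ⟨a', ha', s, hs, rfl⟩ := hx
      refine AddSubgroup.subset_closure ⟨a * a', mul_mem ha ha', b • s, hS b hb s hs, ?_⟩
      rw [← mul_smul, ← mul_smul, mul_assoc, ← hcom a' ha' b hb, mul_assoc]
    | zero => rw [smul_zero]; exact zero_mem _
    | add x y hx hy ihx ihy => rw [smul_add]; exact add_mem ihx ihy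
    | neg x hx ih => rw [smul_neg]; exact neg_mem ih
  have hSU : S ≤ U := fun s hs => AddSubgroup.subset_closure ⟨1, one_mem A, s, hs, (one_smul G s).symm⟩
  have hUtop : U = ⊤ := by
    rcases hirr U hU with h | h
    · exfalso
      apply hS0
      rw [eq_bot_iff, ← h]
      exact hSU
    · exact h
  have hid : e = 1 := by
    ext v
    have hv : v ∈ U := hUtop ▸ AddSubgroup.mem_top v
    show e v = v
    induction hv using AddSubgroup.closure_induction with
    | mem x hx =>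
      obtain ⟨a, ha, s, hs, rfl⟩ := hx
      rw [JJ_smul hcom heJ ha, he s hs]
    | zero => exact map_zero e
    | add x y hx hy ihx ihy => rw [map_add, ihx, ihy]
    | neg x hx ih => rw [map_neg, ih]
  rw [← hid]
  exact heJ

theorem inner_JJ {A B : Subgroup G} (hcom : ∀ a ∈ A, ∀ b ∈ B, a * b = b * a) {z : G → V} (hz : IsDer z)
    {j : AddMonoid.End V} (hj : j ∈ JJ V B) : ∃ u : V, ∀ a ∈ A, j (z a) = a • u - u := by
  induction hj using AddSubgroup.closure_induction with
  | mem x hx =>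
    obtain ⟨b, hb, rfl⟩ := hx
    refine ⟨z b, fun a ha => ?_⟩
    show b • z a - z a = a • z b - z b
    have h1 := hz a b
    have h2 := hz b a
    rw [hcom a ha b hb, h2] at h1
    rw [sub_eq_sub_iff_add_eq_add, add_comm, h1, add_comm]
  | zero => exact ⟨0, fun a _ => by rw [smul_zero, sub_zero]; rfl⟩
  | add x y hx hy ihx ihy =>
    obtain ⟨u, hu⟩ := ihx
    obtain ⟨w, hw⟩ := ihy
    refine ⟨u + w, fun a ha => ?_⟩
    show x (z a) + y (z a) = _
    rw [hu a ha, hw a ha, smul_add]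
    abel
  | neg x hx ih =>
    obtain ⟨u, hu⟩ := ih
    refine ⟨- u, fun a ha => ?_⟩
    show - (x (z a)) = _
    rw [hu a ha, smul_neg]
    abel

/-- both factors without fixed vectors: all derivations are inner -/
theorem small_of_both [Finite V] [Nontrivial V]
    (hirr : ∀ U : AddSubgroup V, (∀ (g : G), ∀ u ∈ U, g • u ∈ U) → U = ⊥ ∨ U = ⊤) {A B : Subgroup G} [hAn : A.Normal]
    (hsup : ∀ g : G, ∃ a ∈ A, ∃ b ∈ B, g = a * b) (hcom : ∀ a ∈ A, ∀ b ∈ B, a * b = b * a)
    (hA : ∀ v : V, (∀ b ∈ A, b • v = v) → v = 0)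
    (hB : ∀ v : V, (∀ b ∈ B, b • v = v) → v = 0) : Small G V := by
  have h1 := one_mem_JJ hirr hsup hcom hB
  let F : V → {z : G → V // ∀ g h : G, z (g * h) = z g + g • z h} := fun u => ⟨fun h => u - h • u, isDer_inner u⟩
  have hF : Function.Surjective F := by
    rintro ⟨z, hz⟩
    obtain ⟨u, hu⟩ := inner_JJ hcom (z := z) hz h1
    refine ⟨- u, Subtype.ext (funext fun g => ?_)⟩
    show - u - g • (- u) = z g
    have hz' : IsDer fun g => z g - (- u - g • (- u)) := IsDer.sub hz (isDer_inner (-u))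
    have hz0 : ∀ a ∈ A, z a - (- u - a • (- u)) = 0 := by
      intro a ha
      have h2 : z a = a • u - u := hu a ha
      rw [h2, smul_neg]
      abel
    have h3 : z g - (- u - g • (- u)) = 0 := by
      refine hA _ fun a ha => ?_
      have h4 := hz' a g
      have h5 := hz' g (g⁻¹ * a * g)
      have h6 : g⁻¹ * a * g ∈ A := by
        have := hAn.conj_mem a ha g⁻¹
        rwa [inv_inv] at this
      simp only [hz0 _ ha, hz0 _ h6, zero_add, smul_zero, add_zero] at h4 h5
      have h7 : g * (g⁻¹ * a * g) = a * g := by group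
      rw [h7] at h5
      rw [← h4, h5]
    exact (sub_eq_zero.1 h3).symm
  exact lt_of_le_of_lt (Nat.card_le_card_of_surjective F hF) card_lt_sq

end

/-! ### products -/

theorem cohAt_congr {p : ℕ} {T T' : Type u} [Group T] [Group T'] (e : T ≃* T') (h : CohAt p T) : CohAt p T' := by
  intro V _ _ _ hV hirr hnt
  let _ : DistribMulAction T V := DistribMulAction.compHom V (e : T →* T')
  have hs : ∀ (t : T) (v : V), t • v = e t • v := fun _ _ => rfl
  refine small_congr (H := T) e (AddEquiv.refl V) (fun _ _ => rfl) (h V hV ?_ ?_)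
  · intro U hU
    apply hirr
    intro g u hu
    have := hU (e.symm g) u hu
    rwa [hs, e.apply_symm_apply] at this
  · obtain ⟨g, v, hv⟩ := hnt
    exact ⟨e.symm g, v, by rwa [hs, e.apply_symm_apply]⟩

theorem cohAt_mul {p : ℕ} {G : Type u} [Group G] [Finite G] {A B : Subgroup G} [A.Normal] [B.Normal]
    (hsup : ∀ g : G, ∃ a ∈ A, ∃ b ∈ B, g = a * b) (hcom : ∀ a ∈ A, ∀ b ∈ B, a * b = b * a)
    (hA : CohAt p ↥A) (hB : CohAt p ↥B) : CohAt p G := by
  intro V _ _ _ hV hirr hnt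
  have hVn : Nontrivial V := by
    obtain ⟨g, v, hv⟩ := hnt
    exact ⟨_, _, hv⟩
  rcases fixed_or hirr A with h1 | h1
  · rcases fixed_or hirr B with h2 | h2
    · exact small_of_both hirr hsup hcom h1 h2
    · refine small_of_normal A (fun v hv => h1 v hv) (hA V hV ?_ ?_)
      · intro U hU
        apply hirr
        intro g u hu
        obtain ⟨a, ha, b, hb, rfl⟩ := hsup g
        rw [mul_smul, h2 b hb]
        exact hU ⟨a, ha⟩ u hu
      · obtain ⟨g, v, hv⟩ := hnt
        obtain ⟨a, ha, b, hb, rfl⟩ := hsup g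
        rw [mul_smul, h2 b hb] at hv
        exact ⟨⟨a, ha⟩, v, hv⟩
  · have h2 : ∀ v : V, (∀ b ∈ B, b • v = v) → v = 0 := by
      rcases fixed_or hirr B with h2 | h2
      · exact h2
      · exfalso
        obtain ⟨g, v, hv⟩ := hnt
        obtain ⟨a, ha, b, hb, rfl⟩ := hsup g
        rw [mul_smul, h2 b hb, h1 a ha] at hv
        exact hv rfl
    refine small_of_normal B (fun v hv => h2 v hv) (hB V hV ?_ ?_)
    · intro U hU
      apply hirr
      intro g u hu
      obtain ⟨a, ha, b, hb, rfl⟩ := hsup g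
      rw [mul_smul, h1 a ha]
      exact hU ⟨b, hb⟩ u hu
    · obtain ⟨g, v, hv⟩ := hnt
      obtain ⟨a, ha, b, hb, rfl⟩ := hsup g
      rw [mul_smul, h1 a ha] at hv
      exact ⟨⟨b, hb⟩, v, hv⟩

theorem cohAt_minSet {p : ℕ} {X : Type u} [Group X] [Finite X] (M : Subgroup X)
    (hind : sSupIndep (minSet M)) (hcoh : ∀ S ∈ minSet M, CohAt p ↥S) (s : Finset (Subgroup X))
    (hs : (s : Set (Subgroup X)) ⊆ minSet M) : CohAt p ↥(sSup (s : Set (Subgroup X))) := by
  classical
  induction s using Finset.induction_on with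
  | empty =>
    intro V _ _ _ _ _ hnt
    exfalso
    obtain ⟨g, v, hv⟩ := hnt
    apply hv
    have h1 : g = 1 := by
      apply Subtype.ext
      have h2 : ∀ x ∈ sSup ((∅ : Finset (Subgroup X)) : Set (Subgroup X)), x = 1 := by
        intro x hx
        rwa [Finset.coe_empty, sSup_empty, mem_bot] at hx
      exact h2 g g.2
    rw [h1, one_smul]
  | insert S s hS ih =>
    rw [Finset.coe_insert, Set.insert_subset_iff] at hs
    have ih' := ih hs.2
    have hcomm : ∀ x ∈ S, ∀ y ∈ sSup (s : Set (Subgroup X)), x * y = y * x := by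
      intro x hx y hy
      have h1 : sSup (s : Set (Subgroup X)) ≤ centralizer {x} := by
        refine sSup_le fun T hT t ht => ?_
        rw [mem_centralizer_singleton_iff]
        have hne : T ≠ S := by
          rintro rfl
          exact hS (Finset.mem_coe.1 hT)
        exact (commute_of_mem hind (K := M) (fun S hS => hS.2.2.1) (fun S hS => hS.1) (hs.2 hT) hs.1 hne ht hx).eq
      exact (mem_centralizer_singleton_iff.1 (h1 hy)).symm
    have hK : sSup ((insert S s : Finset (Subgroup X)) : Set (Subgroup X)) = S ⊔ sSup (s : Set (Subgroup X)) := by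
      rw [Finset.coe_insert, sSup_insert]
    rw [hK]
    set H : Subgroup X := sSup (s : Set (Subgroup X)) with hH
    have hmul : ∀ g ∈ S ⊔ H, ∃ a ∈ S, ∃ b ∈ H, g = a * b := by
      let D : Subgroup X :=
        { carrier := {g | ∃ a ∈ S, ∃ b ∈ H, g = a * b}
          one_mem' := ⟨1, one_mem S, 1, one_mem H, (mul_one 1).symm⟩
          mul_mem' := by
            rintro _ _ ⟨a, ha, b, hb, rfl⟩ ⟨a', ha', b', hb', rfl⟩
            refine ⟨a * a', mul_mem ha ha', b * b', mul_mem hb hb', ?_⟩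
            rw [mul_assoc, ← mul_assoc b, ← hcomm a' ha' b hb]
            group
          inv_mem' := by
            rintro _ ⟨a, ha, b, hb, rfl⟩
            refine ⟨a⁻¹, inv_mem ha, b⁻¹, inv_mem hb, ?_⟩
            rw [mul_inv_rev]
            exact (hcomm _ (inv_mem ha) _ (inv_mem hb)).symm }
      have h1 : S ⊔ H ≤ D := sup_le (fun a ha => ⟨a, ha, 1, one_mem H, (mul_one a).symm⟩)
        (fun b hb => ⟨1, one_mem S, b, hb, (one_mul b).symm⟩)
      exact fun g hg => h1 hg
    have hSn : (S.subgroupOf (S ⊔ H)).Normal := by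
      refine ⟨fun n hn g => ?_⟩
      rw [mem_subgroupOf] at hn ⊢
      obtain ⟨a, ha, b, hb, hg⟩ := hmul g g.2
      show (g : X) * n * (g : X)⁻¹ ∈ S
      rw [hg]
      have h1 : a * b * (n : X) * (a * b)⁻¹ = a * n * a⁻¹ := by
        calc a * b * (n : X) * (a * b)⁻¹ = a * (b * n) * b⁻¹ * a⁻¹ := by group
          _ = a * (n * b) * b⁻¹ * a⁻¹ := by rw [hcomm n hn b hb]
          _ = _ := by group
      rw [h1]
      exact mul_mem (mul_mem ha hn) (inv_mem ha)
    have hHn : (H.subgroupOf (S ⊔ H)).Normal := by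
      refine ⟨fun n hn g => ?_⟩
      rw [mem_subgroupOf] at hn ⊢
      obtain ⟨a, ha, b, hb, hg⟩ := hmul g g.2
      show (g : X) * n * (g : X)⁻¹ ∈ H
      rw [hg]
      have h1 : a * b * (n : X) * (a * b)⁻¹ = b * n * b⁻¹ := by
        have h2 := hcomm a ha _ (mul_mem (mul_mem hb hn) (inv_mem hb))
        calc a * b * (n : X) * (a * b)⁻¹ = a * (b * n * b⁻¹) * a⁻¹ := by group
          _ = (b * n * b⁻¹) * a * a⁻¹ := by rw [h2]
          _ = _ := by group
      rw [h1]
      exact mul_mem (mul_mem hb hn) (inv_mem hb)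
    refine cohAt_mul (A := S.subgroupOf (S ⊔ H)) (B := H.subgroupOf (S ⊔ H)) ?_ ?_
      (cohAt_congr (subgroupOfEquivOfLe (le_sup_left : S ≤ S ⊔ H)).symm (hcoh S hs.1))
      (cohAt_congr (subgroupOfEquivOfLe (le_sup_right : H ≤ S ⊔ H)).symm ih')
    · intro g
      obtain ⟨a, ha, b, hb, hg⟩ := hmul g g.2
      exact ⟨⟨a, mem_sup_left ha⟩, mem_subgroupOf.2 ha, ⟨b, mem_sup_right hb⟩, mem_subgroupOf.2 hb, Subtype.ext hg⟩
    · intro a ha b hb
      exact Subtype.ext (hcomm a (mem_subgroupOf.1 ha) b (mem_subgroupOf.1 hb))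

/-! ### Clifford -/

section

variable {N V : Type*} [Group N] [AddCommGroup V] [DistribMulAction N V]

/-- number of derivations with values in `W` -/
noncomputable def DD (N : Type*) {V : Type*} [Group N] [AddCommGroup V] [DistribMulAction N V] (W : AddSubgroup V) : ℕ :=
  Nat.card {z : N → V // IsDer z ∧ ∀ n, z n ∈ W}

theorem dd_bot : DD N (⊥ : AddSubgroup V) ≤ 1 := by
  have : Subsingleton {z : N → V // IsDer z ∧ ∀ n, z n ∈ (⊥ : AddSubgroup V)} := by
    refine ⟨fun z z' => Subtype.ext (funext fun n => ?_)⟩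
    have h1 := z.2.2 n
    have h2 := z'.2.2 n
    rw [AddSubgroup.mem_bot] at h1 h2
    rw [h1, h2]
  exact Finite.card_le_one_iff_subsingleton.2 this

theorem card_mul_le [Finite V] {W Y : AddSubgroup V} (h : W ⊓ Y = ⊥) :
    Nat.card ↥W * Nat.card ↥Y ≤ Nat.card ↥(W ⊔ Y) := by
  rw [← Nat.card_prod]
  let F : ↥W × ↥Y → ↥(W ⊔ Y) := fun q => ⟨(q.1 : V) + q.2, AddSubgroup.add_mem_sup q.1.2 q.2.2⟩
  refine Nat.card_le_card_of_injective F ?_
  rintro ⟨w, y⟩ ⟨w', y'⟩ hq
  have h1 : (w : V) + y = w' + y' := congrArg Subtype.val hq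
  have h2 : (w : V) - w' = y' - y := by
    rw [sub_eq_sub_iff_add_eq_add, h1]
    abel
  have h3 : (w : V) - w' ∈ W ⊓ Y :=
    AddSubgroup.mem_inf.2 ⟨sub_mem w.2 w'.2, by rw [h2]; exact sub_mem y'.2 y.2⟩
  rw [h, AddSubgroup.mem_bot] at h3
  have h4 : w = w' := Subtype.ext (sub_eq_zero.1 h3)
  have h5 : y = y' := by
    rw [h3] at h2
    exact Subtype.ext (sub_eq_zero.1 h2.symm).symm
  rw [h4, h5]

theorem dd_sup [Finite N] [Finite V] {W Y : AddSubgroup V} (hW : ∀ (n : N), ∀ w ∈ W, n • w ∈ W)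
    (hY : ∀ (n : N), ∀ w ∈ Y, n • w ∈ Y) (h : W ⊓ Y = ⊥) :
    DD N (W ⊔ Y) ≤ DD N W * DD N Y := by
  classical
  unfold DD
  rw [← Nat.card_prod]
  have hex : ∀ v : V, ∃ q : V × V, v ∈ W ⊔ Y → q.1 ∈ W ∧ q.2 ∈ Y ∧ q.1 + q.2 = v := by
    intro v
    by_cases hv : v ∈ W ⊔ Y
    · obtain ⟨w, hw, y, hy, e⟩ := AddSubgroup.mem_sup.1 hv
      exact ⟨(w, y), fun _ => ⟨hw, hy, e⟩⟩
    · exact ⟨(0, 0), fun h => absurd h hv⟩
  choose q hq using hex
  have key : ∀ z : {z : N → V // IsDer z ∧ ∀ n, z n ∈ W ⊔ Y}, ∀ g k : N,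
      (q (z.1 (g * k))).1 = (q (z.1 g)).1 + g • (q (z.1 k)).1 ∧
        (q (z.1 (g * k))).2 = (q (z.1 g)).2 + g • (q (z.1 k)).2 := by
    intro z g k
    obtain ⟨a1, a2, h1⟩ := hq _ (z.2.2 (g * k))
    obtain ⟨b1, b2, h2⟩ := hq _ (z.2.2 g)
    obtain ⟨c1, c2, h3⟩ := hq _ (z.2.2 k)
    have h4 := z.2.1 g k
    have h5 : g • z.1 k = g • (q (z.1 k)).1 + g • (q (z.1 k)).2 := by rw [← smul_add, h3]
    have h6 : (q (z.1 (g * k))).1 + (q (z.1 (g * k))).2 =
        (q (z.1 g)).1 + (q (z.1 g)).2 + (g • (q (z.1 k)).1 + g • (q (z.1 k)).2) := by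
      rw [h1, h2, ← h5, h4]
    have h7 : (q (z.1 (g * k))).1 - ((q (z.1 g)).1 + g • (q (z.1 k)).1) =
        ((q (z.1 g)).2 + g • (q (z.1 k)).2) - (q (z.1 (g * k))).2 := by
      rw [sub_eq_sub_iff_add_eq_add, h6]
      abel
    have h8 : (q (z.1 (g * k))).1 - ((q (z.1 g)).1 + g • (q (z.1 k)).1) ∈ W ⊓ Y :=
      AddSubgroup.mem_inf.2 ⟨sub_mem a1 (add_mem b1 (hW g _ c1)), by
        rw [h7]
        exact sub_mem (add_mem b2 (hY g _ c2)) a2⟩
    rw [h, AddSubgroup.mem_bot] at h8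
    rw [h8] at h7
    exact ⟨sub_eq_zero.1 h8, (sub_eq_zero.1 h7.symm).symm⟩
  let F : {z : N → V // IsDer z ∧ ∀ n, z n ∈ W ⊔ Y} →
      {z : N → V // IsDer z ∧ ∀ n, z n ∈ W} × {z : N → V // IsDer z ∧ ∀ n, z n ∈ Y} := fun z =>
    (⟨fun n => (q (z.1 n)).1, fun g k => (key z g k).1, fun n => (hq _ (z.2.2 n)).1⟩,
      ⟨fun n => (q (z.1 n)).2, fun g k => (key z g k).2, fun n => (hq _ (z.2.2 n)).2.1⟩)
  refine Nat.card_le_card_of_injective F ?_
  intro z z' hz
  apply Subtype.ext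
  funext n
  have h1 : (q (z.1 n)).1 = (q (z'.1 n)).1 := congrFun (congrArg (fun a => a.1.1) hz) n
  have h2 : (q (z.1 n)).2 = (q (z'.1 n)).2 := congrFun (congrArg (fun a => a.2.1) hz) n
  rw [← (hq _ (z.2.2 n)).2.2, ← (hq _ (z'.2.2 n)).2.2, h1, h2]

end

theorem dd_irr {p : ℕ} {N V : Type u} [Group N] [Finite N] [AddCommGroup V] [DistribMulAction N V] [Finite V]
    (hN : CohAt p N) (hV : ∀ v : V, p • v = 0) {W : AddSubgroup V} (hW : ∀ (n : N), ∀ w ∈ W, n • w ∈ W)
    (hirr : ∀ U : AddSubgroup V, (∀ (n : N), ∀ u ∈ U, n • u ∈ U) → U ≤ W → U = ⊥ ∨ U = W)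
    (hnt : ∃ (n : N), ∃ w ∈ W, n • w ≠ w) : DD N W < Nat.card ↥W ^ 2 := by
  let act : DistribMulAction N ↥W :=
    { smul := fun n w => ⟨n • (w : V), hW n w w.2⟩
      one_smul := fun w => Subtype.ext (one_smul N (w : V))
      mul_smul := fun a b w => Subtype.ext (mul_smul a b (w : V))
      smul_zero := fun a => Subtype.ext (smul_zero a)
      smul_add := fun a v w => Subtype.ext (smul_add a (v : V) w) }
  have hs : ∀ (n : N) (w : ↥W), ((n • w : ↥W) : V) = n • (w : V) := fun _ _ => rfl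
  have h1 : Small N ↥W := by
    refine hN ↥W (fun v => Subtype.ext (hV v)) ?_ ?_
    · intro U hU
      have i1 : ∀ (n : N), ∀ u ∈ U.map W.subtype, n • u ∈ U.map W.subtype := by
        rintro n _ ⟨u, hu, rfl⟩
        exact ⟨n • u, hU n u hu, rfl⟩
      have i2 : U.map W.subtype ≤ W := by
        rintro _ ⟨u, hu, rfl⟩
        exact u.2
      rcases hirr (U.map W.subtype) i1 i2 with h | h
      · left
        exact (AddSubgroup.map_eq_bot_iff_of_injective U W.subtype_injective).1 h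
      · right
        rw [eq_top_iff]
        intro w _
        have h2 : (w : V) ∈ U.map W.subtype := by rw [h]; exact w.2
        obtain ⟨w', hw', e⟩ := h2
        have h3 : w' = w := Subtype.ext e
        exact h3 ▸ hw'
    · obtain ⟨n, w, hw, hne⟩ := hnt
      exact ⟨n, ⟨w, hw⟩, fun h => hne (congrArg Subtype.val h)⟩
  refine lt_of_le_of_lt ?_ h1
  let F : {z : N → V // IsDer z ∧ ∀ n, z n ∈ W} → {z : N → ↥W // ∀ g h : N, z (g * h) = z g + g • z h} := fun z =>
    ⟨fun n => ⟨z.1 n, z.2.2 n⟩, fun g k => Subtype.ext (z.2.1 g k)⟩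
  refine Nat.card_le_card_of_injective F ?_
  intro z z' hz
  apply Subtype.ext
  funext n
  exact congrArg Subtype.val (congrFun (congrArg Subtype.val hz) n)

/-- Clifford's theorem for `Small` -/
theorem small_clifford {p : ℕ} {X V : Type u} [Group X] [Finite X] [AddCommGroup V] [DistribMulAction X V] [Finite V]
    [Nontrivial V] (hV : ∀ v : V, p • v = 0)
    (hirr : ∀ U : AddSubgroup V, (∀ (g : X), ∀ u ∈ U, g • u ∈ U) → U = ⊥ ∨ U = ⊤)
    (N : Subgroup X) [hNn : N.Normal] (hN : CohAt p ↥N) (hfix : ∀ v : V, (∀ k ∈ N, k • v = v) → v = 0) :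
    Small X V := by
  refine small_of_normal N hfix ?_
  obtain ⟨S, hS0, hS, hmin⟩ := exists_min (V := V) N
  -- the translates of `S`
  let tr : X → AddSubgroup V := fun g => S.map (DistribSMul.toAddMonoidHom V g)
  have htr : ∀ (g : X) (v : V), v ∈ tr g ↔ g⁻¹ • v ∈ S := by
    intro g v
    constructor
    · rintro ⟨s, hs, rfl⟩
      show g⁻¹ • g • s ∈ S
      rwa [inv_smul_smul]
    · intro h
      exact ⟨g⁻¹ • v, h, smul_inv_smul g v⟩
  have hinv : ∀ (g : X) (n : ↥N), ∀ v ∈ tr g, n • v ∈ tr g := by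
    intro g n v hv
    rw [htr] at hv ⊢
    have h1 : g⁻¹ * n * g ∈ N := by
      have := hNn.conj_mem n n.2 g⁻¹
      rwa [inv_inv] at this
    have h2 := hS _ h1 _ hv
    rw [← mul_smul] at h2
    have h3 : g⁻¹ • n • v = (g⁻¹ * ↑n * g * g⁻¹) • v := by
      rw [mul_inv_cancel_right, mul_smul]
      rfl
    rw [h3]
    exact h2
  have hirr' : ∀ (g : X) (U : AddSubgroup V), (∀ (n : ↥N), ∀ u ∈ U, n • u ∈ U) → U ≤ tr g → U = ⊥ ∨ U = tr g := by
    intro g U hU hUg
    let U' : AddSubgroup V := U.map (DistribSMul.toAddMonoidHom V g⁻¹)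
    have hU' : ∀ v, v ∈ U' ↔ g • v ∈ U := by
      intro v
      constructor
      · rintro ⟨s, hs, rfl⟩
        show g • g⁻¹ • s ∈ U
        rwa [smul_inv_smul]
      · intro h
        exact ⟨g • v, h, inv_smul_smul g v⟩
    have i1 : ∀ b ∈ N, ∀ s ∈ U', b • s ∈ U' := by
      intro b hb s hs
      rw [hU'] at hs ⊢
      have h1 : g * b * g⁻¹ ∈ N := hNn.conj_mem b hb g
      have h2 := hU ⟨_, h1⟩ _ hs
      have h3 : (⟨_, h1⟩ : ↥N) • (g • s) = g • (b • s) := by
        show (g * b * g⁻¹) • (g • s) = g • (b • s)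
        rw [← mul_smul, inv_mul_cancel_right, mul_smul]
      rwa [h3] at h2
    have i2 : U' ≤ S := by
      intro v hv
      rw [hU'] at hv
      have := hUg hv
      rwa [htr, inv_smul_smul] at this
    rcases hmin U' i1 i2 with h | h
    · left
      rw [eq_bot_iff]
      intro u hu
      have h1 : g⁻¹ • u ∈ U' := by rw [hU', smul_inv_smul]; exact hu
      rw [h, AddSubgroup.mem_bot] at h1
      rw [AddSubgroup.mem_bot]
      have h2 := congrArg (fun v => g • v) h1
      simpa using h2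
    · right
      refine le_antisymm hUg fun v hv => ?_
      rw [htr, ← h, hU', smul_inv_smul] at hv
      exact hv
  have hne : ∀ g : X, tr g ≠ ⊥ := by
    intro g h
    apply hS0
    rw [eq_bot_iff]
    intro s hs
    have h1 : g • s ∈ tr g := ⟨s, hs, rfl⟩
    rw [h, AddSubgroup.mem_bot] at h1
    rw [AddSubgroup.mem_bot]
    have h2 := congrArg (fun v => g⁻¹ • v) h1
    simpa using h2
  have hDD : ∀ g : X, DD ↥N (tr g) < Nat.card ↥(tr g) ^ 2 := by
    intro g
    refine dd_irr hN hV (hinv g) (hirr' g) ?_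
    by_contra hcon
    push Not at hcon
    apply hne g
    rw [eq_bot_iff]
    intro v hv
    exact hfix v fun k hk => hcon ⟨k, hk⟩ v hv
  -- a maximal good subgroup
  have hfin : {W : AddSubgroup V | (∀ (n : ↥N), ∀ w ∈ W, n • w ∈ W) ∧ (W = ⊥ ∨ DD ↥N W < Nat.card ↥W ^ 2)}.Finite :=
    Set.toFinite _
  obtain ⟨W, hW⟩ := hfin.exists_maximal ⟨⊥, fun n w hw => by
    rw [AddSubgroup.mem_bot] at hw ⊢
    rw [hw, smul_zero], Or.inl rfl⟩
  obtain ⟨⟨hWinv, hWgood⟩, hWmax⟩ := hW
  have hWle : DD ↥N W ≤ Nat.card ↥W ^ 2 := by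
    rcases hWgood with h | h
    · rw [h]
      refine dd_bot.trans ?_
      rw [AddSubgroup.card_bot, one_pow]
    · exact h.le
  have hWtop : W = ⊤ := by
    by_contra hne1
    have hex : ∃ g : X, ¬ tr g ≤ W := by
      by_contra hcon
      push Not at hcon
      let U : AddSubgroup V :=
        { carrier := {v | ∀ g : X, g • v ∈ W}
          zero_mem' := fun g => by rw [smul_zero]; exact zero_mem W
          add_mem' := fun {v w} hv hw g => by rw [smul_add]; exact add_mem (hv g) (hw g)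
          neg_mem' := fun {v} hv g => by rw [smul_neg]; exact neg_mem (hv g) }
      rcases hirr U (fun g u hu x => by rw [← mul_smul]; exact hu (x * g)) with h | h
      · apply hS0
        rw [eq_bot_iff, ← h]
        intro s hs g
        exact hcon g ⟨s, hs, rfl⟩
      · apply hne1
        rw [eq_top_iff]
        intro v _
        have h1 : v ∈ U := h ▸ AddSubgroup.mem_top v
        have h2 := h1 1
        rwa [one_smul] at h2
    obtain ⟨g, hg⟩ := hex
    have hinf : W ⊓ tr g = ⊥ := by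
      rcases hirr' g (W ⊓ tr g) (fun n u hu => AddSubgroup.mem_inf.2 ⟨hWinv n u (AddSubgroup.mem_inf.1 hu).1,
        hinv g n u (AddSubgroup.mem_inf.1 hu).2⟩) inf_le_right with h | h
      · exact h
      · exact absurd (h ▸ inf_le_left) hg
    have h1 : DD ↥N (W ⊔ tr g) < Nat.card ↥(W ⊔ tr g) ^ 2 := by
      calc DD ↥N (W ⊔ tr g) ≤ DD ↥N W * DD ↥N (tr g) := dd_sup hWinv (hinv g) hinf
        _ ≤ Nat.card ↥W ^ 2 * DD ↥N (tr g) := Nat.mul_le_mul_right _ hWle
        _ < Nat.card ↥W ^ 2 * Nat.card ↥(tr g) ^ 2 :=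
          Nat.mul_lt_mul_of_pos_left (hDD g) (pow_pos Nat.card_pos 2)
        _ = (Nat.card ↥W * Nat.card ↥(tr g)) ^ 2 := (mul_pow _ _ _).symm
        _ ≤ _ := Nat.pow_le_pow_left (card_mul_le hinf) 2
    have h2 : W ⊔ tr g ≤ W := by
      refine hWmax ⟨fun n w hw => ?_, Or.inr h1⟩ le_sup_left
      obtain ⟨a, ha, b, hb, rfl⟩ := AddSubgroup.mem_sup.1 hw
      rw [smul_add]
      exact AddSubgroup.add_mem_sup (hWinv n a ha) (hinv g n b hb)
    exact hg (le_sup_right.trans h2)
  have h3 : DD ↥N W < Nat.card ↥W ^ 2 := by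
    rcases hWgood with h | h
    · rw [h] at hWtop
      exact absurd hWtop bot_ne_top
    · exact h
  rw [hWtop] at h3
  have h4 : Nat.card ↥(⊤ : AddSubgroup V) = Nat.card V := Nat.card_congr AddSubgroup.topEquiv.toEquiv
  rw [h4] at h3
  refine lt_of_le_of_lt ?_ h3
  let F : {z : ↥N → V // ∀ g h : ↥N, z (g * h) = z g + g • z h} →
      {z : ↥N → V // IsDer z ∧ ∀ n, z n ∈ (⊤ : AddSubgroup V)} := fun z => ⟨z.1, z.2, fun n => AddSubgroup.mem_top _⟩
  refine Nat.card_le_card_of_injective F ?_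
  intro z z' hz
  exact Subtype.ext (congrArg (fun a => a.1) hz)

/-! ### the main theorem -/

/-- a `p`-group has nonzero fixed vectors -/
theorem exists_fixed_pgroup {p : ℕ} (hp : p.Prime) {X V : Type*} [Group X] [Finite X] [AddCommGroup V]
    [DistribMulAction X V] [Finite V] [Nontrivial V] (hV : ∀ v : V, p • v = 0) (N : Subgroup X) (hN : IsPGroup p ↥N) :
    ∃ v : V, v ≠ 0 ∧ ∀ n ∈ N, n • v = v := by
  classical
  have : Fact p.Prime := ⟨hp⟩
  have h1 := hN.card_modEq_card_fixedPoints (α := V)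
  have h2 : p ∣ Nat.card V := by
    obtain ⟨v, hv⟩ := exists_ne (0 : V)
    have h3 : addOrderOf v ∣ p := addOrderOf_dvd_of_nsmul_eq_zero (hV v)
    rcases (Nat.dvd_prime hp).1 h3 with h4 | h4
    · exact absurd (AddMonoid.addOrderOf_eq_one_iff.1 h4) hv
    · rw [← h4]
      exact addOrderOf_dvd_natCard v
  have h3 : p ∣ Nat.card ↥(MulAction.fixedPoints ↥N V) := (Nat.ModEq.dvd_iff h1 dvd_rfl).1 h2
  have h0 : (0 : V) ∈ MulAction.fixedPoints ↥N V := fun n => smul_zero n
  have h4 : 1 < Nat.card ↥(MulAction.fixedPoints ↥N V) := by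
    have : Nonempty ↥(MulAction.fixedPoints ↥N V) := ⟨⟨0, h0⟩⟩
    exact lt_of_lt_of_le hp.one_lt (Nat.le_of_dvd Nat.card_pos h3)
  have : Nontrivial ↥(MulAction.fixedPoints ↥N V) := Finite.one_lt_card_iff_nontrivial.1 h4
  obtain ⟨v, hv⟩ := exists_ne (⟨0, h0⟩ : ↥(MulAction.fixedPoints ↥N V))
  exact ⟨v, fun h => hv (Subtype.ext h), fun n hn => v.2 ⟨n, hn⟩⟩

/-- **R1.** -/
theorem ag_of (h : AllSimple.{u} Coh) : AG.{u} := by
  intro p hp X V _ _ _ _ _ hV hirr hfaith hX
  have hVn : Nontrivial V := by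
    by_contra hcon
    rw [not_nontrivial_iff_subsingleton] at hcon
    obtain ⟨g, hg⟩ := hX
    exact hg (hfaith g fun v => Subsingleton.elim _ _)
  have hXt : (⊤ : Subgroup X) ≠ ⊥ := by
    obtain ⟨g, hg⟩ := hX
    intro h
    apply hg
    have : g ∈ (⊥ : Subgroup X) := h ▸ mem_top g
    exact mem_bot.1 this
  obtain ⟨N, -, hN0, hNn', hNmin'⟩ := exists_minimal_normal_le (⊤ : Subgroup X) hXt
  have hNn : N.Normal := normalizer_eq_top_iff.1 (top_le_iff.1 hNn')
  have hmin : ∀ M : Subgroup X, M.Normal → M ≤ N → M = ⊥ ∨ M = N := fun M hM hMN =>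
    hNmin' M hMN (by rw [normalizer_eq_top_iff.2 hM])
  have hfix : ∀ v : V, (∀ k ∈ N, k • v = v) → v = 0 := by
    rcases fixed_or hirr N with h1 | h1
    · exact h1
    · exfalso
      apply hN0
      rw [eq_bot_iff]
      intro n hn
      exact mem_bot.2 (hfaith n (h1 n hn))
  by_cases hab : ∀ x ∈ N, ∀ y ∈ N, Commute x y
  · obtain ⟨q, hq, hqN, -⟩ := abelian_structure N hN0 hmin hab
    refine small_of_normal N hfix (small_of_coprime hp hV ?_)
    intro hdvd
    have : Fact q.Prime := ⟨hq⟩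
    obtain ⟨k, hk⟩ := IsPGroup.iff_card.1 hqN
    rw [hk] at hdvd
    have hpq : p = q := (Nat.prime_dvd_prime_iff_eq hp hq).1 (hp.dvd_of_dvd_pow hdvd)
    subst hpq
    obtain ⟨v, hv, hv'⟩ := exists_fixed_pgroup hp hV N hqN
    exact hv (hfix v hv')
  · obtain ⟨-, hind, hsup, hsim, hcl, -⟩ := nonabelian_structure N hmin hab
    have hcoh : ∀ S ∈ minSet N, CohAt p ↥S := by
      intro S hS
      have : IsSimpleGroup ↥S := hsim S hS
      refine h ↥S ?_ p hp
      intro hcom
      obtain ⟨z, hz⟩ := exists_ne (1 : ↥S)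
      apply hz
      apply Subtype.ext
      exact hcl S hS z z.2 fun t ht => congrArg Subtype.val (hcom.is_comm.comm z ⟨t, ht⟩)
    have hfinS : (minSet N).Finite := Set.toFinite _
    have h1 := cohAt_minSet N hind hcoh hfinS.toFinset (by rw [hfinS.coe_toFinset])
    rw [hfinS.coe_toFinset, hsup] at h1
    exact small_clifford hV hirr N h1 hfix

end Cfsg.Agent.H849.DG.AG
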