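import Cfsg.Agent.H891.DG.Defs
import Cfsg.Agent.Lib.MinNormalNonabelian

/-!
# The wreath structure of a group with a unique minimal normal subgroup, nonabelian (helper849 for S4180, R3)
-/

set_option autoImplicit false

namespace Cfsg.Agent.H849.DG.WrEx

open Subgroup Cfsg.Agent.Lib.MinNormalNonabelian Cfsg.Agent.Lib.MinNormal
open Cfsg.Agent.H891.DG

universe u

section

variable {G : Type u} [Group G] (M : Subgroup G) [M.Normal]

/-- the factors -/
abbrev Ix : Type u := {S : Subgroup G // S ∈ minSet M}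

/-- the action on the factors -/
def act (x : G) (S : Ix M) : Ix M := ⟨S.1.map (MulAut.conj x).toMonoidHom, map_conj_mem_minSet S.2 x⟩

theorem act_mul (x y : G) (S : Ix M) : act M (x * y) S = act M x (act M y S) :=
  Subtype.ext (map_conj_map_conj x y S.1).symm

theorem act_one (S : Ix M) : act M 1 S = S := Subtype.ext (map_conj_one S.1)

/-- the action on the factors as a homomorphism -/
def sg : G →* Equiv.Perm (Ix M) where
  toFun x :=
    { toFun := act M x
      invFun := act M x⁻¹
      left_inv := fun S => by rw [← act_mul, inv_mul_cancel, act_one]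
      right_inv := fun S => by rw [← act_mul, mul_inv_cancel, act_one] }
  map_one' := by
    ext1 S
    exact act_one M S
  map_mul' x y := by
    ext1 S
    exact act_mul M x y S

theorem sg_apply (x : G) (S : Ix M) : sg M x S = act M x S := rfl

variable (S₀ : Ix M) (g : Ix M → G) (hg : ∀ S, act M (g S) S₀ = S)

/-- the cocycle -/
def cc (x : G) (S : Ix M) : G := (g (act M x S))⁻¹ * x * g S

include hg in
theorem act_cc (x : G) (S : Ix M) : act M (cc M g x S) S₀ = S₀ := by
  have h1 : act M (g S) S₀ = S := hg S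
  have h2 := hg (act M x S)
  have h3 := congrArg (act M (g (act M x S))⁻¹) h2
  rw [← act_mul, inv_mul_cancel, act_one] at h3
  rw [cc, act_mul, act_mul, h1]
  exact h3.symm

theorem cc_mul (x y : G) (S : Ix M) : cc M g (x * y) S = cc M g x (act M y S) * cc M g y S := by
  rw [cc, cc, cc, act_mul]
  group

theorem mem_normalizer_of_act {x : G} {S : Ix M} (h : act M x S = S) : x ∈ normalizer (S.1 : Set G) :=
  mem_normalizer_iff_map_conj_eq.2 (congrArg Subtype.val h)

/-- the automorphism of the first factor -/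
def ff (x : G) (S : Ix M) : MulAut ↥(S₀.1) :=
  S₀.1.normalizerMonoidHom ⟨cc M g x S, mem_normalizer_of_act M (act_cc M S₀ g hg x S)⟩

theorem ff_apply (x : G) (S : Ix M) (t : ↥(S₀.1)) :
    ((ff M S₀ g hg x S t : ↥(S₀.1)) : G) = cc M g x S * t * (cc M g x S)⁻¹ := rfl

theorem ff_mul (x y : G) (S : Ix M) :
    ff M S₀ g hg (x * y) S = ff M S₀ g hg x (act M y S) * ff M S₀ g hg y S := by
  ext t
  rw [ff_apply, MulAut.mul_apply, ff_apply, ff_apply, cc_mul]
  group

theorem ff_eq {x : G} {S : Ix M} (h : act M x S = S) (t : ↥(S₀.1)) :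
    ((ff M S₀ g hg x S t : ↥(S₀.1)) : G) = (g S)⁻¹ * (x * (g S * t * (g S)⁻¹) * x⁻¹) * g S := by
  rw [ff_apply, cc, h]
  group

theorem act_of_mem {x : G} (hx : x ∈ M) (S : Ix M) : act M x S = S :=
  Subtype.ext (mem_normalizer_iff_map_conj_eq.1 (S.2.2.2.1 hx))

end

section

variable {G : Type u} [Group G] [Finite G] (M : Subgroup G) [M.Normal]

theorem wrEx_aux (hu : ∀ N : Subgroup G, N.Normal → N ≠ ⊥ → M ≤ N) (hna : ¬ IsMulCommutative ↥M) :
    ∃ (I T : Type u) (_ : Fintype I) (_ : DecidableEq I) (_ : Nonempty I) (_ : Group T) (_ : Finite T)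
      (_ : IsSimpleGroup T), ¬ IsMulCommutative T ∧ Nonempty (Wr G M I T) := by
  classical
  have hmin : ∀ N : Subgroup G, N.Normal → N ≤ M → N = ⊥ ∨ N = M := by
    intro N hN hNM
    by_cases h : N = ⊥
    · exact Or.inl h
    · exact Or.inr (le_antisymm hNM (hu N hN h))
  have hna' : ¬ ∀ x ∈ M, ∀ y ∈ M, Commute x y := by
    intro h
    apply hna
    exact ⟨⟨fun x y => Subtype.ext (h x x.2 y y.2).eq⟩⟩
  obtain ⟨⟨S₁, hS₁⟩, hind, hsup, hsim, hcl, htr⟩ := nonabelian_structure M hmin hna'
  let S₀ : Ix M := ⟨S₁, hS₁⟩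
  have hex : ∀ S : Ix M, ∃ x : G, act M x S₀ = S := by
    intro S
    obtain ⟨x, hx⟩ := htr S₀.1 S₀.2 S.1 S.2
    exact ⟨x, Subtype.ext hx.symm⟩
  choose g hg using hex
  -- centraliser
  have hcent : ∀ x : G, (∀ m ∈ M, m * x = x * m) → x = 1 := by
    intro x hx
    have h1 : centralizer (M : Set G) = ⊥ := by
      by_contra h
      have h2 := hu _ inferInstance h
      apply hna'
      intro a ha b hb
      exact (mem_centralizer_iff.1 (h2 hb) a ha)
    have h3 : x ∈ centralizer (M : Set G) := mem_centralizer_iff.2 hx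
    rwa [h1, mem_bot] at h3
  have hcom : ∀ S T : Ix M, S ≠ T → ∀ x ∈ S.1, ∀ y ∈ T.1, x * y = y * x := by
    intro S T hne x hx y hy
    exact (commute_of_mem hind (K := M) (fun S hS => hS.2.2.1) (fun S hS => hS.1) S.2 T.2
      (fun h => hne (Subtype.ext h)) hx hy).eq
  -- conjugates
  have hgS : ∀ (S : Ix M) (s : G), s ∈ S.1 → (g S)⁻¹ * s * g S ∈ S₀.1 := by
    intro S s hs
    have h1 : S.1 = S₀.1.map (MulAut.conj (g S)).toMonoidHom := (congrArg Subtype.val (hg S)).symm
    rw [h1] at hs
    obtain ⟨t, ht, rfl⟩ := hs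
    have h2 : (g S)⁻¹ * (MulAut.conj (g S)).toMonoidHom t * g S = t := by
      show (g S)⁻¹ * (g S * t * (g S)⁻¹) * g S = t
      group
    rw [h2]
    exact ht
  have hgS' : ∀ (S : Ix M) (t : G), t ∈ S₀.1 → g S * t * (g S)⁻¹ ∈ S.1 := by
    intro S t ht
    have h1 : S.1 = S₀.1.map (MulAut.conj (g S)).toMonoidHom := (congrArg Subtype.val (hg S)).symm
    rw [h1]
    exact ⟨t, ht, rfl⟩
  -- injectivity
  have hinj : ∀ x, sg M x = 1 → (∀ i, ff M S₀ g hg x i = 1) → x = 1 := by
    intro x hx hf
    apply hcent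
    have h1 : M ≤ centralizer {x} := by
      rw [← hsup]
      refine sSup_le fun S hS s hs => ?_
      rw [mem_centralizer_singleton_iff]
      have h2 : act M x ⟨S, hS⟩ = ⟨S, hS⟩ := by
        rw [← sg_apply, hx]
        rfl
      have h3 := ff_eq M S₀ g hg h2 ⟨_, hgS ⟨S, hS⟩ s hs⟩
      rw [hf] at h3
      simp only [MulAut.one_apply] at h3
      have h4 : x * s * x⁻¹ = s := by
        have h5 : g ⟨S, hS⟩ * ((g ⟨S, hS⟩)⁻¹ * s * g ⟨S, hS⟩) * (g ⟨S, hS⟩)⁻¹ = s := by group
        rw [h5] at h3
        exact (mul_left_cancel (mul_right_cancel h3)).symm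
      calc s * x = (x * s * x⁻¹) * x := by rw [h4]
        _ = x * s := by group
    intro m hm
    exact (mem_centralizer_singleton_iff.1 (h1 hm))
  -- surjectivity
  have hff_ne : ∀ (i j : Ix M) (y : G), y ∈ j.1 → i ≠ j → ff M S₀ g hg y i = 1 := by
    intro i j y hy hne
    ext t
    have hyM : y ∈ M := j.2.1 hy
    rw [ff_eq M S₀ g hg (act_of_mem M hyM i)]
    have h1 := hcom i j hne _ (hgS' i t t.2) y hy
    rw [← h1]
    show _ = (t : G)
    group
  have hff_eq : ∀ (i : Ix M) (t : ↥(S₀.1)), ff M S₀ g hg (g i * t * (g i)⁻¹) i = MulAut.conj t := by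
    intro i t
    ext s
    have hyM : g i * (t : G) * (g i)⁻¹ ∈ M := i.2.1 (hgS' i t t.2)
    rw [ff_eq M S₀ g hg (act_of_mem M hyM i)]
    show _ = (t : G) * s * (t : G)⁻¹
    group
  have hsurj' : ∀ (t : Ix M → ↥(S₀.1)) (A : Finset (Ix M)), ∃ x ∈ M, ∀ i, ff M S₀ g hg x i =
      if i ∈ A then MulAut.conj (t i) else 1 := by
    intro t A
    induction A using Finset.induction_on with
    | empty =>
      refine ⟨1, M.one_mem, fun i => ?_⟩
      rw [if_neg (Finset.notMem_empty i)]
      ext s
      rw [ff_eq M S₀ g hg (act_of_mem M M.one_mem i)]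
      show _ = (s : G)
      group
    | insert j A hj ih =>
      obtain ⟨x, hx, hxf⟩ := ih
      refine ⟨x * (g j * t j * (g j)⁻¹), M.mul_mem hx (j.2.1 (hgS' j _ (t j).2)), fun i => ?_⟩
      rw [ff_mul, act_of_mem M (j.2.1 (hgS' j _ (t j).2)), hxf]
      by_cases hij : i = j
      · subst hij
        rw [if_neg hj, if_pos (Finset.mem_insert_self _ _), one_mul, hff_eq]
      · rw [hff_ne i j _ (hgS' j _ (t j).2) hij, mul_one]
        by_cases hiA : i ∈ A
        · rw [if_pos hiA, if_pos (Finset.mem_insert_of_mem hiA)]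
        · rw [if_neg hiA, if_neg (by rw [Finset.mem_insert, not_or]; exact ⟨hij, hiA⟩)]
  have hfinI : Fintype (Ix M) := Fintype.ofFinite _
  have hsurj : ∀ t : Ix M → ↥(S₀.1), ∃ x ∈ M, ∀ i, ff M S₀ g hg x i = MulAut.conj (t i) := by
    intro t
    obtain ⟨x, hx, h⟩ := hsurj' t Finset.univ
    exact ⟨x, hx, fun i => by rw [h, if_pos (Finset.mem_univ i)]⟩
  -- elements of `M` act as inner automorphisms
  have hinner : ∀ m ∈ M, ∃ t ∈ S₀.1, ∀ s ∈ S₀.1, m * s * m⁻¹ = t * s * t⁻¹ := by
    let D : Subgroup G :=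
      { carrier := {m | ∃ t ∈ S₀.1, ∀ s ∈ S₀.1, m * s * m⁻¹ = t * s * t⁻¹}
        one_mem' := ⟨1, one_mem _, fun s _ => rfl⟩
        mul_mem' := by
          rintro a b ⟨t, ht, h⟩ ⟨t', ht', h'⟩
          refine ⟨t * t', mul_mem ht ht', fun s hs => ?_⟩
          have h1 := h' s hs
          have h2 := h _ (mul_mem (mul_mem ht' hs) (inv_mem ht'))
          rw [← h1] at h2
          calc a * b * s * (a * b)⁻¹ = a * (b * s * b⁻¹) * a⁻¹ := by group
            _ = t * (b * s * b⁻¹) * t⁻¹ := h2
            _ = t * (t' * s * t'⁻¹) * t⁻¹ := by rw [h1]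
            _ = _ := by group
        inv_mem' := by
          rintro a ⟨t, ht, h⟩
          refine ⟨t⁻¹, inv_mem ht, fun s hs => ?_⟩
          have h1 := h (t⁻¹ * s * t) (mul_mem (mul_mem (inv_mem ht) hs) ht)
          have h2 : t * (t⁻¹ * s * t) * t⁻¹ = s := by group
          rw [h2] at h1
          calc a⁻¹ * s * a⁻¹⁻¹ = a⁻¹ * (a * (t⁻¹ * s * t) * a⁻¹) * a⁻¹⁻¹ := by rw [h1]
            _ = _ := by group }
    have h1 : M ≤ D := by
      rw [← hsup]
      refine sSup_le fun S hS m hm => ?_
      by_cases h : (⟨S, hS⟩ : Ix M) = S₀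
      · have h2 : S = S₀.1 := congrArg Subtype.val h
        exact ⟨m, h2 ▸ hm, fun s _ => rfl⟩
      · refine ⟨1, one_mem _, fun s hs => ?_⟩
        have h2 := hcom ⟨S, hS⟩ S₀ h m hm s hs
        rw [h2]
        group
    exact fun m hm => h1 hm
  have : IsSimpleGroup ↥(S₀.1) := hsim _ S₀.2
  refine ⟨Ix M, ↥(S₀.1), hfinI, inferInstance, ⟨S₀⟩, inferInstance, inferInstance, inferInstance, ?_, ⟨?_⟩⟩
  · intro hab
    have h1 : Nontrivial ↥(S₀.1) := inferInstance
    obtain ⟨z, hz⟩ := exists_ne (1 : ↥(S₀.1))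
    apply hz
    apply Subtype.ext
    refine hcl _ S₀.2 z z.2 fun t ht => ?_
    exact congrArg Subtype.val (hab.is_comm.comm z ⟨t, ht⟩)
  · exact
      { σ := sg M
        f := ff M S₀ g hg
        mul := ff_mul M S₀ g hg
        mem := by
          intro x
          constructor
          · intro hx
            refine ⟨?_, fun i => ?_⟩
            · ext1 S
              exact act_of_mem M hx S
            · have h1 : (g i)⁻¹ * x * g i ∈ M := by
                have := (inferInstance : M.Normal).conj_mem x hx (g i)⁻¹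
                rwa [inv_inv] at this
              obtain ⟨t, ht, h⟩ := hinner _ h1
              refine ⟨⟨t, ht⟩, ?_⟩
              ext s
              rw [ff_eq M S₀ g hg (act_of_mem M hx i)]
              show t * s * t⁻¹ = _
              rw [← h s s.2]
              group
          · rintro ⟨hx, hf⟩
            choose t ht using hf
            obtain ⟨m, hm, hmt⟩ := hsurj t
            have h1 : x * m⁻¹ = 1 := by
              have hm' : act M m⁻¹ = id := funext fun S => act_of_mem M (inv_mem hm) S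
              apply hinj
              · ext1 S
                rw [sg_apply, act_mul, act_of_mem M (inv_mem hm), ← sg_apply, hx]
              · intro i
                have h2 : ff M S₀ g hg (m * m⁻¹) i = 1 := by
                  rw [mul_inv_cancel]
                  ext s
                  rw [ff_eq M S₀ g hg (act_of_mem M M.one_mem i)]
                  show _ = (s : G)
                  group
                rw [ff_mul, act_of_mem M (inv_mem hm), hmt] at h2
                rw [ff_mul, act_of_mem M (inv_mem hm), ← ht, h2]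
            rw [mul_inv_eq_one] at h1
            rw [h1]
            exact hm
        surj := hsurj
        inj := hinj
        trans := by
          intro i j
          obtain ⟨x, hx⟩ := htr i.1 i.2 j.1 j.2
          exact ⟨x, Subtype.ext hx.symm⟩ }

end

/-- **R3.** -/
theorem wrEx : WrEx.{u} := fun _ _ _ M _ _ hu hna => wrEx_aux M hu hna

end Cfsg.Agent.H849.DG.WrEx
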